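import Cfsg.Agent.LSD.Main

/-!
Involutions of the triality group in characteristic two: calculus modulo the root subgroup of the highest root.
-/

set_option autoImplicit false
set_option maxRecDepth 100000
set_option linter.unusedSectionVars false
set_option linter.unusedSimpArgs false

namespace Cfsg.Agent.LSD

open Cfsg.Lie Cfsg.Agent.Chev Cfsg.Agent.ChevGrp Cfsg.Agent.ChevGrp.DData Cfsg.Agent.ChevWeyl Cfsg.Agent.ChevTw
  Cfsg.Agent.Tw3

variable {K : Type*} [Field K] (φ : K ≃+* K)

/-- being in the coset with given coordinates -/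
def Is (x : ↥(chevD4.group K)) (a : ℕ → K) : Prop := ∃ δ : K, x = pl X L8 a * X 23 δ

theorem pl_center (a : ℕ → K) (t : K) : X 23 t * pl X L8 a = pl X L8 a * X 23 t := by
  have h : ∀ M : List ℕ, (∀ r ∈ M, r ∈ L8) → X 23 t * pl X M a = pl X M a * X 23 t := by
    intro M
    induction M with
    | nil => intro _; simp [pl]
    | cons r M ih =>
      intro hM
      have h1 : pl X (r :: M) a = X r (a r) * pl X M a := by simp [pl]
      rw [h1, ← mul_assoc, X_center (hM r List.mem_cons_self), mul_assoc, ih (fun r hr => hM r (List.mem_cons_of_mem _ hr)),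
        mul_assoc]
  exact h L8 (fun r hr => hr)

theorem pl_mul (a b : ℕ → K) : pl X L8 a * pl X L8 b = pl X L8 (fun r => a r + b r) * X 23 (cc c8 L8 a b) :=
  pl_mul_pl (X := X) (z := 23) (c := c8) (L := L8) (X_add (by norm_num)) (fun r hr => X_add (tab2 r hr).1)
    (fun r hr => X_center hr) X_pair

theorem Is.mul {x y : ↥(chevD4.group K)} {a b : ℕ → K} (hx : Is x a) (hy : Is y b) : Is (x * y) (fun r => a r + b r) := by
  obtain ⟨δ, rfl⟩ := hx
  obtain ⟨δ', rfl⟩ := hy
  refine ⟨cc c8 L8 a b + (δ + δ'), ?_⟩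
  rw [X_add (by norm_num), X_add (by norm_num), ← mul_assoc (pl X L8 fun r => a r + b r), ← pl_mul]
  calc pl X L8 a * X 23 δ * (pl X L8 b * X 23 δ') = pl X L8 a * (X 23 δ * pl X L8 b) * X 23 δ' := by
        simp only [mul_assoc]
    _ = _ := by rw [pl_center]; simp only [mul_assoc]

theorem pl_congr {a b : ℕ → K} {L : List ℕ} (h : ∀ r ∈ L, a r = b r) : pl X L a = pl X L b := by
  unfold pl
  congr 1
  exact List.map_congr_left fun r hr => by rw [h r hr]

theorem Is.congr {x : ↥(chevD4.group K)} {a b : ℕ → K} (hx : Is x a) (h : ∀ r ∈ L8, a r = b r) : Is x b := by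
  obtain ⟨δ, rfl⟩ := hx
  exact ⟨δ, by rw [pl_congr h]⟩

theorem is_one : Is (1 : ↥(chevD4.group K)) (fun _ => 0) := by
  refine ⟨0, ?_⟩
  rw [X_zero (by norm_num), mul_one]
  unfold pl
  have : L8.map (fun r => X r (0 : K)) = L8.map (fun _ => (1 : ↥(chevD4.group K))) :=
    List.map_congr_left fun r hr => X_zero (tab2 r hr).1
  rw [this]; simp

theorem is_X23 (t : K) : Is (X 23 t) (fun _ => 0) := by
  obtain ⟨δ, h⟩ := is_one (K := K)
  refine ⟨t + δ, ?_⟩
  rw [X_add (by norm_num), ← mul_assoc, ← pl_center, mul_assoc, ← h, mul_one]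

theorem is_X {r : ℕ} (hr : r ∈ L8) (t : K) : Is (X r t) (fun i => if i = r then t else 0) := by
  refine ⟨0, ?_⟩
  rw [X_zero (by norm_num), mul_one]
  have h0 : ∀ r ∈ L8, X r (0 : K) = 1 := fun r hr => X_zero (tab2 r hr).1
  have key : ∀ M : List ℕ, (∀ i ∈ M, i ∈ L8) → M.Nodup →
      pl X M (fun i => if i = r then t else 0) = if r ∈ M then X r t else 1 := by
    intro M
    induction M with
    | nil => intro _ _; simp [pl]
    | cons s M ih =>
      intro hM hnd
      rw [List.nodup_cons] at hnd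
      have h1 : pl X (s :: M) (fun i => if i = r then t else 0) = X s (if s = r then t else 0) *
          pl X M (fun i => if i = r then t else 0) := by simp [pl]
      rw [h1, ih (fun i hi => hM i (List.mem_cons_of_mem _ hi)) hnd.2]
      by_cases hs : s = r
      · subst hs
        rw [if_pos rfl, if_neg hnd.1, mul_one, if_pos List.mem_cons_self]
      · rw [if_neg hs, h0 s (hM s List.mem_cons_self), one_mul]
        have : r ∈ s :: M ↔ r ∈ M := by
          rw [List.mem_cons]
          exact ⟨fun h => h.resolve_left (fun h => hs h.symm), Or.inr⟩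
        simp only [this]
  rw [key L8 (fun i hi => hi) (by decide), if_pos hr]

/-- uniqueness -/
theorem Is.comm {x y : ↥(chevD4.group K)} {a b : ℕ → K} (hx : Is x a) (hy : Is y b) :
    x * y = y * x * X 23 (cc c8 L8 a b - cc c8 L8 b a) := by
  obtain ⟨δ, rfl⟩ := hx
  obtain ⟨δ', rfl⟩ := hy
  have e1 : pl X L8 a * X 23 δ * (pl X L8 b * X 23 δ') = pl X L8 (fun r => a r + b r) *
      (X 23 (cc c8 L8 a b) * X 23 δ * X 23 δ') := by
    rw [← mul_assoc, mul_assoc (pl X L8 a), pl_center, ← mul_assoc, pl_mul]; simp only [mul_assoc]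
  have e2 : pl X L8 b * X 23 δ' * (pl X L8 a * X 23 δ) = pl X L8 (fun r => a r + b r) *
      (X 23 (cc c8 L8 b a) * X 23 δ' * X 23 δ) := by
    rw [← mul_assoc, mul_assoc (pl X L8 b), pl_center, ← mul_assoc, pl_mul, pl_congr fun r _ => add_comm (b r) (a r)]
    simp only [mul_assoc]
  rw [e1, e2, mul_assoc (pl X L8 fun r => a r + b r) (X 23 (cc c8 L8 b a) * X 23 δ' * X 23 δ)]
  congr 1
  simp only [← X_add (show 23 < 24 by norm_num)]
  congr 1
  ring

theorem X23_inj {s t : K} (h : X 23 s = X 23 t) : s = t :=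
  ((amb goodD4 dD4 K).x_eq_iff (⟨23, by decide⟩ : Fin chevD4.nroots) s t).1 h

theorem Is.uniq {x : ↥(chevD4.group K)} {a a' : ℕ → K} (hx : Is x a) (hx' : Is x a') (b : ℕ → K) :
    cc c8 L8 a b - cc c8 L8 b a = cc c8 L8 a' b - cc c8 L8 b a' := by
  have hb : Is (pl X L8 b) b := ⟨0, by rw [X_zero (by norm_num), mul_one]⟩
  have h1 := hx.comm hb
  have h2 := hx'.comm hb
  rw [h1] at h2
  exact X23_inj (mul_left_cancel h2)

theorem is_ee (u s v w : K) : Is (ee φ u s v w) (av φ u s v w) := ⟨0, by rw [X_zero (by norm_num), mul_one]; rfl⟩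

theorem av_uniq {x : ↥(chevD4.group K)} {u s v w u' s' v' w' : K} (hx : Is x (av φ u s v w))
    (hx' : Is x (av φ u' s' v' w')) (hn : ∀ y : K, (∀ t : K, y * t + φ (y * t) + φ (φ (y * t)) = 0) → y = 0) :
    u = u' ∧ s = s' ∧ v = v' ∧ w = w' := by
  have h := fun a b c d => hx.uniq hx' (av φ a b c d)
  simp only [cc_av] at h
  have h1 := h 0 0 0 1
  have h2 := h 1 0 0 0
  have h3 : ∀ t, (s - s') * t + φ ((s - s') * t) + φ (φ ((s - s') * t)) = 0 := by
    intro t
    have := h 0 0 t 0
    simp only [zero_mul, mul_zero, map_zero, sub_zero, add_zero, sub_mul, map_sub, zero_sub] at this ⊢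
    linear_combination -this
  have h4 : ∀ t, (v - v') * t + φ ((v - v') * t) + φ (φ ((v - v') * t)) = 0 := by
    intro t
    have := h 0 t 0 0
    simp only [zero_mul, mul_zero, map_zero, sub_zero, add_zero, sub_mul, map_sub, zero_sub, mul_comm t] at this ⊢
    linear_combination this
  refine ⟨?_, sub_eq_zero.1 (hn _ h3), sub_eq_zero.1 (hn _ h4), ?_⟩
  · simp only [zero_mul, mul_zero, map_zero, sub_zero, add_zero, mul_one, zero_sub, sub_neg_eq_add, zero_add, neg_zero] at h1
    exact h1
  · simp only [zero_mul, mul_zero, map_zero, sub_zero, add_zero, one_mul, zero_sub, sub_neg_eq_add, zero_add, neg_zero] at h2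
    exact neg_injective h2

end Cfsg.Agent.LSD
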