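import Cfsg.Agent.LSD.Inv

/-!
Involutions of the triality group in characteristic two: conjugation of the coordinates.
-/

set_option autoImplicit false
set_option maxRecDepth 100000
set_option linter.unusedSectionVars false
set_option linter.unusedSimpArgs false

namespace Cfsg.Agent.LSD

open Cfsg.Lie Cfsg.Agent.Chev Cfsg.Agent.ChevGrp Cfsg.Agent.ChevGrp.DData Cfsg.Agent.ChevWeyl Cfsg.Agent.ChevTw
  Cfsg.Agent.Tw3

variable {K : Type*} [Field K] (φ : K ≃+* K)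

section gen

/-- conjugation of elements with given coordinates -/
theorem Is.conj {g : ↥(chevD4.group K)} {f : ℕ → K → ℕ → K} (hf : ∀ r ∈ L8, ∀ c, Is (g * X r c * g⁻¹) (f r c))
    (hz : ∀ c, ∃ c', g * X 23 c * g⁻¹ = X 23 c') {x : ↥(chevD4.group K)} {a : ℕ → K} (hx : Is x a) :
    Is (g * x * g⁻¹) (fun i => (L8.map fun r => f r (a r) i).sum) := by
  obtain ⟨δ, rfl⟩ := hx
  have key : ∀ M : List ℕ, (∀ r ∈ M, r ∈ L8) → Is (g * pl X M a * g⁻¹) (fun i => (M.map fun r => f r (a r) i).sum) := by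
    intro M
    induction M with
    | nil =>
      intro _
      have : g * pl X [] a * g⁻¹ = 1 := by simp [pl]
      rw [this]
      exact is_one.congr fun r _ => by simp
    | cons r M ih =>
      intro hM
      have h1 : g * pl X (r :: M) a * g⁻¹ = (g * X r (a r) * g⁻¹) * (g * pl X M a * g⁻¹) := by
        simp only [pl, List.map_cons, List.prod_cons]; group
      rw [h1]
      refine ((hf r (hM r List.mem_cons_self) _).mul (ih fun r hr => hM r (List.mem_cons_of_mem _ hr))).congr fun i _ => ?_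
      simp
  obtain ⟨c', hc⟩ := hz δ
  have h2 : g * (pl X L8 a * X 23 δ) * g⁻¹ = (g * pl X L8 a * g⁻¹) * (g * X 23 δ * g⁻¹) := by group
  rw [h2, hc]
  exact ((key L8 fun r hr => hr).mul (is_X23 c')).congr fun i _ => by simp

end gen

section two

variable [CharP K 2]

omit [CharP K 2] in
theorem int2 [CharP K 2] {z : ℤ} (h : z = 1 ∨ z = -1) : ((z : ℤ) : K) = 1 := by
  rcases h with rfl | rfl
  · simp
  · rw [Int.cast_neg, Int.cast_one, CharTwo.neg_eq]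

theorem nn_conj2 (i : Fin chevD4.rank) {r : ℕ} (hr : r < 24) (t : K) :
    (amb goodD4 dD4 K).R.nn i * X r t * ((amb goodD4 dD4 K).R.nn i)⁻¹ = X (chevD4.reflectRoot i r) t := by
  have h1 := nG_conj goodD4.toGood2 i.2 hr t
  have h2 : (amb goodD4 dD4 K).R.nn i = nG goodD4.toGood2 (chevD4.simple i) 1 := chevG_nn _ _ _
  rw [h2]
  refine h1.trans ?_
  rw [int2 (goodD4.eta_or i.2 hr), one_mul]
  rfl

theorem refl_lt : ∀ i < 4, ∀ r < 24, chevD4.reflectRoot i r < 24 := by decide +kernel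

theorem nj_conj2 (j : Fin chevG2.rank) {r : ℕ} (hr : r < 24) (t : K) :
    (tD4 φ).nj j * X r t * ((tD4 φ).nj j)⁻¹ = X (jwD4 j r) t := by
  obtain ⟨j, hj⟩ := j
  have hj' : j < 2 := hj
  interval_cases j
  · have h3 := nn_conj2 (K := K) ⟨3, by decide⟩ hr t
    have h2 := nn_conj2 (K := K) ⟨2, by decide⟩ (refl_lt 3 (by norm_num) r hr) t
    have h0 := nn_conj2 (K := K) ⟨0, by decide⟩ (refl_lt 2 (by norm_num) _ (refl_lt 3 (by norm_num) r hr)) t
    have e : (tD4 φ).nj (⟨0, hj⟩ : Fin chevG2.rank) = (amb goodD4 dD4 K).R.nn ⟨0, by decide⟩ *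
        ((amb goodD4 dD4 K).R.nn ⟨2, by decide⟩ * ((amb goodD4 dD4 K).R.nn ⟨3, by decide⟩ * 1)) := rfl
    rw [e, mul_one]
    have h : jwD4 0 r = chevD4.reflectRoot 0 (chevD4.reflectRoot 2 (chevD4.reflectRoot 3 r)) := rfl
    rw [h, ← h0, ← h2, ← h3]; group
  · have h1 := nn_conj2 (K := K) ⟨1, by decide⟩ hr t
    have e : (tD4 φ).nj (⟨1, hj⟩ : Fin chevG2.rank) = (amb goodD4 dD4 K).R.nn ⟨1, by decide⟩ * 1 := rfl
    rw [e, mul_one]
    exact h1

theorem jtab0 : jwD4 0 14 = 22 ∧ jwD4 0 15 = 21 ∧ jwD4 0 16 = 20 ∧ jwD4 0 19 = 17 ∧ jwD4 0 17 = 19 ∧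
    jwD4 0 20 = 16 ∧ jwD4 0 21 = 15 ∧ jwD4 0 22 = 14 ∧ jwD4 0 23 = 23 := by decide +kernel

theorem jtab1 : jwD4 1 18 = 19 ∧ jwD4 1 13 = 16 ∧ jwD4 1 12 = 15 ∧ jwD4 1 23 = 22 ∧ jwD4 1 22 = 23 := by decide +kernel

theorem mulv {a b : K} (h : a = b) (r : ℕ) : X r a = X r b := by rw [h]

theorem is_av {x : ↥(chevD4.group K)} {a : ℕ → K} (hx : Is x a) {u s v w : K} (h14 : a 14 = u) (h15 : a 15 = φ (φ s))
    (h16 : a 16 = φ s) (h19 : a 19 = s) (h17 : a 17 = v) (h20 : a 20 = φ v) (h21 : a 21 = φ (φ v)) (h22 : a 22 = w) :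
    Is x (av φ u s v w) := by
  refine hx.congr fun r hr => ?_
  simp only [L8, List.mem_cons, List.not_mem_nil, or_false] at hr
  rcases hr with rfl | rfl | rfl | rfl | rfl | rfl | rfl | rfl <;> simp only [av, CharTwo.neg_eq] <;> assumption

/-- the swap -/
theorem swap {x : ↥(chevD4.group K)} {u s v w : K} (hx : Is x (av φ u s v w)) :
    Is ((tD4 φ).nj j0 * x * ((tD4 φ).nj j0)⁻¹) (av φ w v s u) := by
  obtain ⟨a14, a15, a16, a19, a17, a20, a21, a22, a23⟩ := jtab0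
  have hL : ∀ r ∈ L8, jwD4 0 r ∈ L8 := by decide +kernel
  have h := Is.conj (g := (tD4 φ).nj j0) (f := fun r c i => if i = jwD4 0 r then c else 0)
    (fun r hr c => by
      have := nj_conj2 φ j0 (tab2 r hr).1 c
      rw [this]
      exact is_X (hL r hr) c)
    (fun c => ⟨c, by
      have := nj_conj2 φ j0 (show 23 < 24 by norm_num) c
      rw [this]
      exact congrArg (fun r => X r c) a23⟩) hx
  simp only [L8, List.map_cons, List.map_nil, List.sum_cons, List.sum_nil, a14, a15, a16, a19, a17, a20, a21, a22] at h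
  refine is_av φ h ?_ ?_ ?_ ?_ ?_ ?_ ?_ ?_ <;> simp [av, CharTwo.neg_eq]

/-! the shears -/

/-- the shifted root -/
def dd2 (p r : ℕ) : ℕ := (chevD4.commTerms p r).headI.1

theorem dtab : ∀ p ∈ [12, 13, 18], ∀ r ∈ L8, (p < 24 ∧ r < 24 ∧ r ≠ p ∧ r ≠ chevD4.neg p) ∧
    ((chevD4.commTerms p r = [] ∧ dd2 p r = 0) ∨ ((chevD4.commTerms p r = [(dd2 p r, 1, 1, 1)] ∨
      chevD4.commTerms p r = [(dd2 p r, -1, 1, 1)]) ∧ dd2 p r ∈ L8)) := by decide +kernel

theorem dtab23 : ∀ p ∈ [12, 13, 18], p < 24 ∧ 23 < 24 ∧ 23 ≠ p ∧ 23 ≠ chevD4.neg p ∧ chevD4.commTerms p 23 = [] := by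
  decide +kernel

theorem dval12 : dd2 12 14 = 15 ∧ dd2 12 15 = 0 ∧ dd2 12 16 = 17 ∧ dd2 12 19 = 20 ∧ dd2 12 17 = 0 ∧ dd2 12 20 = 0 ∧
    dd2 12 21 = 22 ∧ dd2 12 22 = 0 := by decide +kernel
theorem dval13 : dd2 13 14 = 16 ∧ dd2 13 15 = 17 ∧ dd2 13 16 = 0 ∧ dd2 13 19 = 21 ∧ dd2 13 17 = 0 ∧ dd2 13 20 = 22 ∧
    dd2 13 21 = 0 ∧ dd2 13 22 = 0 := by decide +kernel
theorem dval18 : dd2 18 14 = 19 ∧ dd2 18 15 = 20 ∧ dd2 18 16 = 21 ∧ dd2 18 19 = 0 ∧ dd2 18 17 = 22 ∧ dd2 18 20 = 0 ∧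
    dd2 18 21 = 0 ∧ dd2 18 22 = 0 := by decide +kernel

/-- the images of the coordinates under a shear -/
def fs (p : ℕ) (t : K) (r : ℕ) (c : K) (i : ℕ) : K := (if i = r then c else 0) + (if i = dd2 p r then t * c else 0)

theorem shear {p : ℕ} (hp : p ∈ [12, 13, 18]) (t : K) {x : ↥(chevD4.group K)} {a : ℕ → K} (hx : Is x a) :
    Is ((X p t)⁻¹ * x * X p t) (fun i => (L8.map fun r => fs p t r (a r) i).sum) := by
  have h := Is.conj (g := (X p t)⁻¹) (f := fs p t) (fun r hr c => by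
      obtain ⟨h1, h2⟩ := dtab p hp r hr
      rw [inv_inv]
      rcases h2 with ⟨h2, h3⟩ | ⟨h2, h3⟩
      · have : (X p t)⁻¹ * X r c * X p t = X r c := by
          rw [mul_assoc, ← X_comm ⟨h1.1, h1.2.1, h1.2.2.1, h1.2.2.2, h2⟩ t c]; group
        rw [this]
        refine (is_X hr c).congr fun i hi => ?_
        have h0 : i ≠ 0 := by rintro rfl; revert hi; decide
        simp [fs, h3, h0]
      · have : (X p t)⁻¹ * X r c * X p t = X r c * X (dd2 p r) (t * c) := by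
          rcases h2 with h2 | h2
          · exact cj' h1 h2 (by push_cast; rw [CharTwo.neg_eq]; ring)
          · exact cj' h1 h2 (by push_cast; rw [CharTwo.neg_eq, CharTwo.neg_eq]; ring)
        rw [this]
        exact (is_X hr c).mul (is_X h3 (t * c)))
    (fun c => ⟨c, by
      rw [inv_inv, mul_assoc, ← X_comm (dtab23 p hp) t c]; group⟩) hx
  rwa [inv_inv] at h

theorem shear_aa (h3 : ∀ t, φ (φ (φ t)) = t) (t : K) {x : ↥(chevD4.group K)} {u s v w : K} (hu : φ u = u)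
    (hx : Is x (av φ u s v w)) : Is ((aa φ t)⁻¹ * x * aa φ t)
      (av φ u (s + u * t) (v + (φ t * φ (φ s) + φ (φ t) * φ s) + u * (φ t * φ (φ t)))
        (w + (t * v + φ (t * v) + φ (φ (t * v))) + (φ t * φ (φ t) * s + φ (φ t * φ (φ t) * s) +
          φ (φ (φ t * φ (φ t) * s))) + u * (t * (φ t * φ (φ t))))) := by
  have h1 := shear (K := K) (p := 18) (by simp) t hx
  have h2 := shear (K := K) (p := 13) (by simp) (φ t) h1
  have h4 := shear (K := K) (p := 12) (by simp) (φ (φ t)) h2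
  have e : (aa φ t)⁻¹ * x * aa φ t = (X 12 (φ (φ t)))⁻¹ * ((X 13 (φ t))⁻¹ * ((X 18 t)⁻¹ * x * X 18 t) *
      X 13 (φ t)) * X 12 (φ (φ t)) := by unfold aa; group
  rw [← e] at h4
  obtain ⟨a14, a15, a16, a19, a17, a20, a21, a22⟩ := dval12
  obtain ⟨b14, b15, b16, b19, b17, b20, b21, b22⟩ := dval13
  obtain ⟨c14, c15, c16, c19, c17, c20, c21, c22⟩ := dval18
  simp only [L8, List.map_cons, List.map_nil, List.sum_cons, List.sum_nil, fs, a14, a15, a16, a19, a17, a20, a21, a22,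
    b14, b15, b16, b19, b17, b20, b21, b22, c14, c15, c16, c19, c17, c20, c21, c22, av, CharTwo.neg_eq] at h4
  norm_num at h4
  refine is_av φ h4 ?_ ?_ ?_ ?_ ?_ ?_ ?_ ?_ <;> norm_num [map_add, map_mul, h3, hu] <;> ring

end two

end Cfsg.Agent.LSD
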