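import Cfsg.Agent.LSD.Inv2

/-!
Involutions of the triality group in characteristic two: the positive root subgroups.
-/

set_option autoImplicit false
set_option maxRecDepth 100000
set_option linter.unusedSectionVars false
set_option linter.unusedSimpArgs false

namespace Cfsg.Agent.LSD

open Cfsg.Lie Cfsg.Agent.Chev Cfsg.Agent.ChevGrp Cfsg.Agent.ChevGrp.DData Cfsg.Agent.ChevWeyl Cfsg.Agent.ChevTw
  Cfsg.Agent.Tw3

variable {K : Type*} [Field K] (φ : K ≃+* K)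

/-- indices of the classes -/
def ix (A : ℕ) (h : A < 12 := by decide) : Fin chevG2.nroots := ⟨A, h⟩

theorem refG2 : chevG2.reflectRoot 1 8 = 7 ∧ chevG2.reflectRoot 0 9 = 8 ∧ chevG2.reflectRoot 0 10 = 6 ∧
    chevG2.reflectRoot 1 11 = 10 ∧ chevG2.simple 0 = 7 ∧ chevG2.simple 1 = 6 ∧ jwD4 1 14 = 9 := by decide +kernel

theorem p0_eq : dG2.rp.wsys.p j0 = ix 7 := Fin.ext ((pG2_val dG2 j0).trans refG2.2.2.2.2.1)
theorem p1_eq : dG2.rp.wsys.p j1 = ix 6 := Fin.ext ((pG2_val dG2 j1).trans refG2.2.2.2.2.2.1)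

theorem w_eq (j : Fin chevG2.rank) {A B : Fin chevG2.nroots} (h : chevG2.reflectRoot j A = B) :
    dG2.rp.wsys.w j A = B := Fin.ext ((dG2.hw j A).trans h)

theorem mem7 {x : ↥(chevD4.group K)} (hx : x ∈ (tD4 φ).X' (ix 7)) : ∃ t, x = aa φ t := by
  rw [← p0_eq] at hx
  obtain ⟨c, -, h⟩ := ((bdD4 goodD4 dD4 dG2 φ).mem_X'_p j0 x).1 hx
  refine ⟨c, ?_⟩
  rw [← h, xbp0]; rfl

theorem mem6 {x : ↥(chevD4.group K)} (hx : x ∈ (tD4 φ).X' (ix 6)) : ∃ u, φ u = u ∧ x = X 14 u := by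
  rw [← p1_eq] at hx
  obtain ⟨c, h0, h⟩ := ((bdD4 goodD4 dD4 dG2 φ).mem_X'_p j1 x).1 hx
  refine ⟨c, (fx1 goodD4 dD4 dG2 φ c).1 h0, ?_⟩
  rw [← h, xbp1]; rfl

/-- descent to a reflected root subgroup -/
theorem desc (j : Fin chevG2.rank) {A B : Fin chevG2.nroots} (h : chevG2.reflectRoot j A = B)
    {x : ↥(chevD4.group K)} (hx : x ∈ (tD4 φ).X' A) :
    ∃ y ∈ (tD4 φ).X' B, x = (tD4 φ).nj j * y * ((tD4 φ).nj j)⁻¹ := by
  refine ⟨((tD4 φ).nj j)⁻¹ * x * (tD4 φ).nj j, ?_, by group⟩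
  have h1 := TwData.conj_X'_inv ((tD4 φ).act_nj j) (TwData.lift_w j) ((tD4 φ).σ_nj j) hx
  rw [WSys.w_inv, w_eq j h] at h1
  exact h1

section two

variable [CharP K 2]

theorem mem10 {x : ↥(chevD4.group K)} (hx : x ∈ (tD4 φ).X' (ix 10)) : ∃ u, φ u = u ∧ x = X 22 u := by
  obtain ⟨y, hy, rfl⟩ := desc φ j0 (A := ix 10) (B := ix 6) refG2.2.2.1 hx
  obtain ⟨u, hu, rfl⟩ := mem6 φ hy
  refine ⟨u, hu, ?_⟩
  rw [nj_conj2 φ j0 (by norm_num)]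
  exact congrArg (fun r => X r u) jtab0.1

theorem mem11 {x : ↥(chevD4.group K)} (hx : x ∈ (tD4 φ).X' (ix 11)) : ∃ u, φ u = u ∧ x = X 23 u := by
  obtain ⟨y, hy, rfl⟩ := desc φ j1 (A := ix 11) (B := ix 10) refG2.2.2.2.1 hx
  obtain ⟨u, hu, rfl⟩ := mem10 φ hy
  refine ⟨u, hu, ?_⟩
  rw [nj_conj2 φ j1 (by norm_num)]
  exact congrArg (fun r => X r u) jtab1.2.2.2.2

theorem conj3 {g a b c : ↥(chevD4.group K)} : g * (a * (b * c)) * g⁻¹ = (g * a * g⁻¹) * ((g * b * g⁻¹) * (g * c * g⁻¹)) := by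
  group

theorem mem8 {x : ↥(chevD4.group K)} (hx : x ∈ (tD4 φ).X' (ix 8)) : ∃ s, x = X 19 s * (X 16 (φ s) * X 15 (φ (φ s))) := by
  obtain ⟨y, hy, rfl⟩ := desc φ j1 (A := ix 8) (B := ix 7) refG2.1 hx
  obtain ⟨s, rfl⟩ := mem7 φ hy
  refine ⟨s, ?_⟩
  unfold aa
  rw [conj3, nj_conj2 φ j1 (by norm_num), nj_conj2 φ j1 (by norm_num), nj_conj2 φ j1 (by norm_num)]
  have e1 : jwD4 (j1 : Fin chevG2.rank) 18 = 19 := jtab1.1
  have e2 : jwD4 (j1 : Fin chevG2.rank) 13 = 16 := jtab1.2.1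
  have e3 : jwD4 (j1 : Fin chevG2.rank) 12 = 15 := jtab1.2.2.1
  rw [e1, e2, e3]

theorem mem9 {x : ↥(chevD4.group K)} (hx : x ∈ (tD4 φ).X' (ix 9)) : ∃ s, x = X 17 s * (X 20 (φ s) * X 21 (φ (φ s))) := by
  obtain ⟨y, hy, rfl⟩ := desc φ j0 (A := ix 9) (B := ix 8) refG2.2.1 hx
  obtain ⟨s, rfl⟩ := mem8 φ hy
  refine ⟨s, ?_⟩
  rw [conj3, nj_conj2 φ j0 (by norm_num), nj_conj2 φ j0 (by norm_num), nj_conj2 φ j0 (by norm_num)]
  have e1 : jwD4 (j0 : Fin chevG2.rank) 19 = 17 := jtab0.2.2.2.1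
  have e2 : jwD4 (j0 : Fin chevG2.rank) 16 = 20 := jtab0.2.2.1
  have e3 : jwD4 (j0 : Fin chevG2.rank) 15 = 21 := jtab0.2.1
  rw [e1, e2, e3]

theorem isav_mul {x y : ↥(chevD4.group K)} {u s v w u' s' v' w' : K} (hx : Is x (av φ u s v w))
    (hy : Is y (av φ u' s' v' w')) : Is (x * y) (av φ (u + u') (s + s') (v + v') (w + w')) :=
  (hx.mul hy).congr fun r _ => av_add φ u s v w u' s' v' w' r

theorem is6 (u : K) : Is (X 14 u) (av φ u 0 0 0) := by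
  refine is_av φ (is_X (r := 14) (by simp [L8]) u) ?_ ?_ ?_ ?_ ?_ ?_ ?_ ?_ <;> simp

theorem is10 (u : K) : Is (X 22 u) (av φ 0 0 0 u) := by
  refine is_av φ (is_X (r := 22) (by simp [L8]) u) ?_ ?_ ?_ ?_ ?_ ?_ ?_ ?_ <;> simp

theorem is11 (u : K) : Is (X 23 u) (av φ 0 0 0 0) := by
  refine is_av φ (is_X23 u) ?_ ?_ ?_ ?_ ?_ ?_ ?_ ?_ <;> simp

theorem is8 (s : K) : Is (X 19 s * (X 16 (φ s) * X 15 (φ (φ s)))) (av φ 0 s 0 0) := by
  refine is_av φ ((is_X (r := 19) (by simp [L8]) s).mul ((is_X (r := 16) (by simp [L8]) (φ s)).mul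
    (is_X (r := 15) (by simp [L8]) (φ (φ s))))) ?_ ?_ ?_ ?_ ?_ ?_ ?_ ?_ <;> simp

theorem is9 (s : K) : Is (X 17 s * (X 20 (φ s) * X 21 (φ (φ s)))) (av φ 0 0 s 0) := by
  refine is_av φ ((is_X (r := 17) (by simp [L8]) s).mul ((is_X (r := 20) (by simp [L8]) (φ s)).mul
    (is_X (r := 21) (by simp [L8]) (φ (φ s))))) ?_ ?_ ?_ ?_ ?_ ?_ ?_ ?_ <;> simp

/-- the Heisenberg subgroup -/
def QQ : Subgroup ↥(chevD4.group K) where
  carrier := {x | ∃ u s v w, φ u = u ∧ φ w = w ∧ Is x (av φ u s v w)}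
  one_mem' := ⟨0, 0, 0, 0, map_zero φ, map_zero φ, by
    refine is_av φ is_one ?_ ?_ ?_ ?_ ?_ ?_ ?_ ?_ <;> simp⟩
  mul_mem' := by
    rintro x y ⟨u, s, v, w, hu, hw, hx⟩ ⟨u', s', v', w', hu', hw', hy⟩
    exact ⟨_, _, _, _, by rw [map_add, hu, hu'], by rw [map_add, hw, hw'], isav_mul φ hx hy⟩
  inv_mem' := by
    rintro x ⟨u, s, v, w, hu, hw, hx⟩
    refine ⟨u, s, v, w, hu, hw, ?_⟩
    have h1 : x * x = X 23 (cc c8 L8 (av φ u s v w) (av φ u s v w) + (hx.choose + hx.choose)) := by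
      have h2 := hx.choose_spec
      have h0 : pl X L8 (fun r => av φ u s v w r + av φ u s v w r) = 1 := by
        have : pl X L8 (fun r => av φ u s v w r + av φ u s v w r) = pl X L8 (fun _ => (0 : K)) :=
          pl_congr fun r _ => CharTwo.add_self_eq_zero _
        rw [this]
        unfold pl
        have : L8.map (fun r => X r (0 : K)) = L8.map (fun _ => (1 : ↥(chevD4.group K))) :=
          List.map_congr_left fun r hr => X_zero (tab2 r hr).1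
        rw [this]; simp
      nth_rewrite 1 [h2]
      nth_rewrite 2 [h2]
      rw [X_add (by norm_num), X_add (by norm_num)]
      calc pl X L8 (av φ u s v w) * X 23 hx.choose * (pl X L8 (av φ u s v w) * X 23 hx.choose)
          = pl X L8 (av φ u s v w) * (X 23 hx.choose * pl X L8 (av φ u s v w)) * X 23 hx.choose := by
            simp only [mul_assoc]
        _ = (pl X L8 (av φ u s v w) * pl X L8 (av φ u s v w)) * (X 23 hx.choose * X 23 hx.choose) := by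
            rw [pl_center]; simp only [mul_assoc]
        _ = _ := by rw [pl_mul, h0, one_mul]
    have h2 : x⁻¹ = x * X 23 (-(cc c8 L8 (av φ u s v w) (av φ u s v w) + (hx.choose + hx.choose))) := by
      rw [X_neg (by norm_num), ← h1]; group
    rw [h2]
    exact (hx.mul (is_X23 _)).congr fun r _ => by simp

theorem mem_QQ {x : ↥(chevD4.group K)} : x ∈ QQ φ ↔ ∃ u s v w, φ u = u ∧ φ w = w ∧ Is x (av φ u s v w) := Iff.rfl

theorem Ui_le : (tD4 φ).tw.Ui j0 ≤ QQ φ := by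
  unfold RGrp.Ui
  rw [gen_le]
  intro A hA x hx
  rw [TwData.tw_X] at hx
  obtain ⟨h1, h2⟩ := hA
  rw [posG2_iff dG2] at h1
  rw [p0_eq] at h2
  obtain ⟨A, hA⟩ := A
  have hA' : A < 12 := hA
  have h2' : A ≠ 7 := fun h => h2 (Fin.ext h)
  change 6 ≤ A at h1
  have hcase : A = 6 ∨ A = 8 ∨ A = 9 ∨ A = 10 ∨ A = 11 := by omega
  rcases hcase with rfl | rfl | rfl | rfl | rfl
  · obtain ⟨u, hu, rfl⟩ := mem6 φ hx
    exact ⟨u, 0, 0, 0, hu, map_zero φ, is6 φ u⟩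
  · obtain ⟨s, rfl⟩ := mem8 φ hx
    exact ⟨0, s, 0, 0, map_zero φ, map_zero φ, is8 φ s⟩
  · obtain ⟨s, rfl⟩ := mem9 φ hx
    exact ⟨0, 0, s, 0, map_zero φ, map_zero φ, is9 φ s⟩
  · obtain ⟨u, hu, rfl⟩ := mem10 φ hx
    exact ⟨0, 0, 0, u, map_zero φ, hu, is10 φ u⟩
  · obtain ⟨u, hu, rfl⟩ := mem11 φ hx
    exact ⟨0, 0, 0, 0, map_zero φ, map_zero φ, is11 φ u⟩

/-- elements of the positive unipotent subgroup -/
theorem mem_twU {g : ↥(chevD4.group K)} (hg : g ∈ (tD4 φ).tw.U) : ∃ t, ∃ x ∈ QQ φ, g = aa φ t * x := by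
  obtain ⟨a, ha, x, hx, rfl⟩ := RGrp.mem_U j0 hg
  rw [TwData.tw_X, p0_eq] at ha
  obtain ⟨t, rfl⟩ := mem7 φ ha
  exact ⟨t, x, Ui_le φ hx, rfl⟩

end two

end Cfsg.Agent.LSD
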