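import Cfsg.Agent.LSD.Inv3

/-!
Involutions of the triality group in characteristic two: conjugacy inside the Heisenberg subgroup.
-/

set_option autoImplicit false
set_option maxRecDepth 100000
set_option linter.unusedSectionVars false
set_option linter.unusedSimpArgs false

namespace Cfsg.Agent.LSD

open Cfsg.Lie Cfsg.Agent.Chev Cfsg.Agent.ChevGrp Cfsg.Agent.ChevGrp.DData Cfsg.Agent.ChevWeyl Cfsg.Agent.ChevTw
  Cfsg.Agent.Tw3

variable {K : Type*} [Field K] (φ : K ≃+* K)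

/-- conjugacy in the twisted group -/
def Cj (x y : ↥(chevD4.group K)) : Prop := ∃ g ∈ (tD4 φ).G1, g * x * g⁻¹ = y

variable {φ}

theorem Cj.trans {x y z : ↥(chevD4.group K)} (h : Cj φ x y) (h' : Cj φ y z) : Cj φ x z := by
  obtain ⟨g, hg, rfl⟩ := h
  obtain ⟨g', hg', rfl⟩ := h'
  exact ⟨g' * g, mul_mem hg' hg, by group⟩

theorem Cj.symm {x y : ↥(chevD4.group K)} (h : Cj φ x y) : Cj φ y x := by
  obtain ⟨g, hg, rfl⟩ := h
  exact ⟨g⁻¹, inv_mem hg, by group⟩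

theorem Cj.mem {x y : ↥(chevD4.group K)} (h : Cj φ x y) (hx : x ∈ (tD4 φ).G1) : y ∈ (tD4 φ).G1 := by
  obtain ⟨g, hg, rfl⟩ := h
  exact mul_mem (mul_mem hg hx) (inv_mem hg)

theorem Cj.sq {x y : ↥(chevD4.group K)} (h : Cj φ x y) (hx : x * x = 1) : y * y = 1 := by
  obtain ⟨g, hg, rfl⟩ := h
  have : g * x * g⁻¹ * (g * x * g⁻¹) = g * (x * x) * g⁻¹ := by group
  rw [this, hx]; group

theorem Cj.ne {x y : ↥(chevD4.group K)} (h : Cj φ x y) (hx : x ≠ 1) : y ≠ 1 := by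
  obtain ⟨g, hg, rfl⟩ := h
  intro h
  apply hx
  have : x = g⁻¹ * (g * x * g⁻¹) * g := by group
  rw [this, h]; group

/-- the trace -/
def tr3 (φ : K ≃+* K) (t : K) : K := t + φ t + φ (φ t)

theorem tr3_fix (h3 : ∀ t, φ (φ (φ t)) = t) (t : K) : φ (tr3 φ t) = tr3 φ t := by
  unfold tr3; rw [map_add, map_add, h3]; ring

theorem tr3_smul {c : K} (hc : φ c = c) (t : K) : tr3 φ (c * t) = c * tr3 φ t := by
  unfold tr3; rw [map_mul, map_mul, hc, hc]; ring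

theorem tr3_add (s t : K) : tr3 φ (s + t) = tr3 φ s + tr3 φ t := by
  unfold tr3; rw [map_add, map_add]; ring

theorem tr3_shift (h3 : ∀ t, φ (φ (φ t)) = t) (t : K) : tr3 φ (φ t) = tr3 φ t := by
  unfold tr3; rw [h3]; ring

theorem tr3_zero : tr3 φ 0 = 0 := by simp [tr3]

/-- nondegeneracy -/
theorem hn_of (htr : ∀ v, φ v = v → ∃ t, tr3 φ t = v) (y : K) (h : ∀ t : K, y * t + φ (y * t) + φ (φ (y * t)) = 0) :
    y = 0 := by
  by_contra hy
  obtain ⟨t, ht⟩ := htr 1 (map_one φ)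
  have := h (y⁻¹ * t)
  rw [← mul_assoc, mul_inv_cancel₀ hy, one_mul] at this
  unfold tr3 at ht
  rw [ht] at this
  exact one_ne_zero this

section two

variable [CharP K 2]

theorem Is.sq {x : ↥(chevD4.group K)} {a : ℕ → K} (hx : Is x a) : x * x = X 23 (cc c8 L8 a a) := by
  obtain ⟨δ, rfl⟩ := hx
  have h0 : pl X L8 (fun r => a r + a r) = 1 := by
    have : pl X L8 (fun r => a r + a r) = pl X L8 (fun _ => (0 : K)) := pl_congr fun r _ => CharTwo.add_self_eq_zero _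
    rw [this]
    unfold pl
    have : L8.map (fun r => X r (0 : K)) = L8.map (fun _ => (1 : ↥(chevD4.group K))) :=
      List.map_congr_left fun r hr => X_zero (tab2 r hr).1
    rw [this]; simp
  calc pl X L8 a * X 23 δ * (pl X L8 a * X 23 δ) = pl X L8 a * (X 23 δ * pl X L8 a) * X 23 δ := by
        simp only [mul_assoc]
    _ = (pl X L8 a * pl X L8 a) * (X 23 δ * X 23 δ) := by rw [pl_center]; simp only [mul_assoc]
    _ = _ := by
        rw [pl_mul, h0, one_mul, ← X_add (by norm_num), CharTwo.add_self_eq_zero, X_zero (by norm_num), mul_one]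

theorem Is.inv {x : ↥(chevD4.group K)} {a : ℕ → K} (hx : Is x a) : Is x⁻¹ a := by
  have h1 := hx.sq
  have h2 : x⁻¹ = x * X 23 (-(cc c8 L8 a a)) := by
    rw [X_neg (by norm_num), ← h1]; group
  rw [h2]
  exact (hx.mul (is_X23 _)).congr fun r _ => by simp

omit [CharP K 2] in
theorem pl_zero : pl X L8 (fun _ => (0 : K)) = (1 : ↥(chevD4.group K)) := by
  unfold pl
  have : L8.map (fun r => X r (0 : K)) = L8.map (fun _ => (1 : ↥(chevD4.group K))) :=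
    List.map_congr_left fun r hr => X_zero (tab2 r hr).1
  rw [this]; simp

omit [CharP K 2] in
theorem av_zero {r : ℕ} (hr : r ∈ L8) : av φ 0 0 0 0 r = 0 := by
  simp only [L8, List.mem_cons, List.not_mem_nil, or_false] at hr
  rcases hr with rfl | rfl | rfl | rfl | rfl | rfl | rfl | rfl <;> simp [av]

omit [CharP K 2] in
theorem X23_of {x : ↥(chevD4.group K)} (hx : Is x (av φ 0 0 0 0)) : ∃ δ, x = X 23 δ := by
  obtain ⟨δ, h⟩ := hx
  refine ⟨δ, ?_⟩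
  rw [h, pl_congr fun r hr => av_zero hr, pl_zero, one_mul]

theorem X23_one {δ : K} : X 23 δ = 1 ↔ δ = 0 := by
  constructor
  · intro h
    rw [← X_zero (K := K) (r := 23) (by norm_num)] at h
    exact X23_inj h
  · rintro rfl; exact X_zero (by norm_num)

/-- elements of order two -/
theorem quad {x : ↥(chevD4.group K)} {u s v w : K} (hx : Is x (av φ u s v w)) (h : x * x = 1) :
    tr3 φ (s * v) = u * w := by
  rw [hx.sq, X23_one, cc_av] at h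
  exact sub_eq_zero.1 h

/-- elements with the same nonzero coordinates are conjugate -/
theorem cjZ (htr : ∀ v, φ v = v → ∃ t, tr3 φ t = v) (h3 : ∀ t, φ (φ (φ t)) = t) {x x' : ↥(chevD4.group K)}
    {u s v w : K} (hu : φ u = u) (hw : φ w = w) (hx : Is x (av φ u s v w)) (hx' : Is x' (av φ u s v w))
    (hG : x ∈ (tD4 φ).G1) (hG' : x' ∈ (tD4 φ).G1) (hz : u ≠ 0 ∨ s ≠ 0 ∨ v ≠ 0 ∨ w ≠ 0) : Cj φ x x' := by
  obtain ⟨δ, e⟩ := hx
  obtain ⟨δ', e'⟩ := hx'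
  have h1 : x' = x * X 23 (δ' - δ) := by
    rw [e, e', mul_assoc, ← X_add (by norm_num)]; congr 2; ring
  have h2 : φ (δ' - δ) = δ' - δ := by
    apply fix_of_mem φ
    have : X 23 (δ' - δ) = x⁻¹ * x' := by rw [h1]; group
    rw [this]; exact mul_mem (inv_mem hG) hG'
  obtain ⟨c, hc⟩ : ∃ c, c = δ' - δ := ⟨_, rfl⟩
  rw [← hc] at h1 h2
  obtain ⟨u', s', v', w', hu', hw', hk⟩ : ∃ u' s' v' w' : K, φ u' = u' ∧ φ w' = w' ∧
      (tr3 φ (s' * v) - u' * w) - (tr3 φ (s * v') - u * w') = -c := by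
    rcases hz with hz | hz | hz | hz
    · refine ⟨0, 0, 0, -(u⁻¹ * c), map_zero φ, ?_, ?_⟩
      · rw [map_neg, map_mul, map_inv₀, hu, h2]
      · simp only [zero_mul, mul_zero, tr3_zero]; field_simp; ring
    · obtain ⟨t, ht⟩ := htr c h2
      refine ⟨0, 0, s⁻¹ * t, 0, map_zero φ, map_zero φ, ?_⟩
      rw [← mul_assoc, mul_inv_cancel₀ hz, one_mul, ht]
      simp only [zero_mul, mul_zero, tr3_zero]; ring
    · obtain ⟨t, ht⟩ := htr (-c) (by rw [map_neg, h2])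
      refine ⟨0, t * v⁻¹, 0, 0, map_zero φ, map_zero φ, ?_⟩
      rw [mul_assoc, inv_mul_cancel₀ hz, mul_one, ht]
      simp only [zero_mul, mul_zero, tr3_zero]; ring
    · refine ⟨c * w⁻¹, 0, 0, 0, ?_, map_zero φ, ?_⟩
      · rw [map_mul, map_inv₀, hw, h2]
      · simp only [zero_mul, mul_zero, tr3_zero]; field_simp; ring
  refine ⟨ee φ u' s' v' w', ee_mem φ h3 s' v' hu' hw', ?_⟩
  have hx : Is x (av φ u s v w) := ⟨δ, e⟩
  have h4 := hx.comm (is_ee φ u' s' v' w')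
  rw [cc_av, cc_av] at h4
  have h5 : s' * v + φ (s' * v) + φ (φ (s' * v)) - u' * w - (s * v' + φ (s * v') + φ (φ (s * v')) - u * w') = -c := hk
  rw [h5] at h4
  have h6 : ee φ u' s' v' w' * x = x * ee φ u' s' v' w' * X 23 c := by
    rw [h4, mul_assoc, ← X_add (by norm_num), neg_add_cancel, X_zero (by norm_num), mul_one]
  rw [h6, h1, mul_assoc x, ← ee_center]; group

theorem cj_swap {x : ↥(chevD4.group K)} {u s v w : K} (hx : Is x (av φ u s v w)) :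
    ∃ y, Cj φ x y ∧ Is y (av φ w v s u) :=
  ⟨_, ⟨_, (tD4 φ).nj_G1 j0, rfl⟩, swap φ hx⟩

theorem cj_shear (h3 : ∀ t, φ (φ (φ t)) = t) (t : K) {x : ↥(chevD4.group K)} {u s v w : K} (hu : φ u = u)
    (hx : Is x (av φ u s v w)) : ∃ y, Cj φ x y ∧ Is y
      (av φ u (s + u * t) (v + (φ t * φ (φ s) + φ (φ t) * φ s) + u * (φ t * φ (φ t)))
        (w + tr3 φ (t * v) + tr3 φ (φ t * φ (φ t) * s) + u * (t * (φ t * φ (φ t))))) :=
  ⟨_, ⟨(aa φ t)⁻¹, inv_mem (aa_mem φ h3 t), by rw [inv_inv]⟩, shear_aa φ h3 t hu hx⟩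

theorem ctab : (chevD4.cartan 0 14 = -1 ∧ chevD4.cartan 2 14 = -1 ∧ chevD4.cartan 3 14 = -1 ∧ chevD4.cartan 1 14 = 2) ∧
    (chevD4.cartan 0 17 = -1 ∧ chevD4.cartan 2 17 = 1 ∧ chevD4.cartan 3 17 = 1 ∧ chevD4.cartan 1 17 = 0) ∧
    (chevD4.cartan 0 20 = 1 ∧ chevD4.cartan 2 20 = -1 ∧ chevD4.cartan 3 20 = 1 ∧ chevD4.cartan 1 20 = 0) ∧
    (chevD4.cartan 0 21 = 1 ∧ chevD4.cartan 2 21 = 1 ∧ chevD4.cartan 3 21 = -1 ∧ chevD4.cartan 1 21 = 0) := by
  decide +kernel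

/-- the torus action -/
theorem cj_torus (h3 : ∀ t, φ (φ (φ t)) = t) (c : Kˣ) {κ : Kˣ} (hκ : φ (κ : K) = κ) {x : ↥(chevD4.group K)} {u v : K}
    (hx : Is x (av φ u 0 v 0)) : ∃ y, Cj φ x y ∧ Is y
      (av φ (((c : K) * (φ c * φ (φ c)))⁻¹ * ((κ : K) ^ 2 * u)) 0 ((c : K)⁻¹ * (φ c * φ (φ c)) * v) 0) := by
  obtain ⟨g, hg⟩ : ∃ g, g = Tw3.tD goodD4 dD4 dG2 φ c κ := ⟨_, rfl⟩
  have hgG : g ∈ (tD4 φ).G1 := by
    rw [hg]
    exact mul_mem ((bdD4 goodD4 dD4 dG2 φ).hb_mem_G1 j0 (fx0 goodD4 dD4 dG2 φ h3 _))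
      ((bdD4 goodD4 dD4 dG2 φ).hb_mem_G1 j1 ((fx1 goodD4 dD4 dG2 φ _).2 hκ))
  have hconj : ∀ {r : ℕ} (hr : r < 24) (t : K), g * X r t * g⁻¹ = X r
      ((((c ^ chevD4.cartan 0 r * (φu φ c ^ chevD4.cartan 2 r * φu φ (φu φ c) ^ chevD4.cartan 3 r)) *
        κ ^ chevD4.cartan 1 r : Kˣ) : K) * t) := by
    intro r hr t
    have := tD_conj goodD4 dD4 dG2 φ c κ (⟨r, hr⟩ : Fin chevD4.nroots) t
    rw [chb_j0, chb_j1] at this
    rw [hg]
    exact this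
  obtain ⟨⟨a1, a2, a3, a4⟩, ⟨b1, b2, b3, b4⟩, ⟨c1, c2, c3, c4⟩, d1, d2, d3, d4⟩ := ctab
  refine ⟨g * x * g⁻¹, ⟨g, hgG, rfl⟩, ?_⟩
  have h := Is.conj (g := g) (f := fun r t i => if i = r then ((((c ^ chevD4.cartan 0 r *
      (φu φ c ^ chevD4.cartan 2 r * φu φ (φu φ c) ^ chevD4.cartan 3 r)) * κ ^ chevD4.cartan 1 r : Kˣ) : K) * t) else 0)
    (fun r hr t => by rw [hconj (tab2 r hr).1]; exact is_X hr _)
    (fun t => ⟨_, hconj (by norm_num) t⟩) hx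
  simp only [L8, List.map_cons, List.map_nil, List.sum_cons, List.sum_nil] at h
  refine is_av φ h ?_ ?_ ?_ ?_ ?_ ?_ ?_ ?_
  · simp only [av, a1, a2, a3, a4]
    norm_num [φu_val]
    ring
  · simp [av]
  · simp [av]
  · simp [av]
  · simp only [av, b1, b2, b3, b4]
    norm_num [φu_val]
  · simp only [av, c1, c2, c3, c4, CharTwo.neg_eq]
    norm_num [φu_val, h3]
    left; ring
  · simp only [av, d1, d2, d3, d4, CharTwo.neg_eq]
    norm_num [φu_val, h3]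
    left; ring
  · simp [av]

end two

end Cfsg.Agent.LSD
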