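import Cfsg.Agent.LSD.Inv4

/-!
Involutions of the triality group in characteristic two: reduction to two representatives.
-/

set_option autoImplicit false
set_option maxRecDepth 100000
set_option linter.unusedSectionVars false
set_option linter.unusedSimpArgs false

namespace Cfsg.Agent.LSD

open Cfsg.Lie Cfsg.Agent.Chev Cfsg.Agent.ChevGrp Cfsg.Agent.ChevGrp.DData Cfsg.Agent.ChevWeyl Cfsg.Agent.ChevTw
  Cfsg.Agent.Tw3

variable {K : Type*} [Field K] {φ : K ≃+* K}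

section fld

variable [CharP K 2]

theorem two_tr (a : K) : a + a = 0 := CharTwo.add_self_eq_zero a

theorem eq_of_add {a b : K} (h : a + b = 0) : a = b := CharTwo.add_eq_zero.1 h

/-- a shear making the last coordinate nonzero -/
theorem exT (h3 : ∀ t, φ (φ (φ t)) = t) (hne : ∃ r : K, φ r ≠ r) (htr : ∀ v, φ v = v → ∃ t, tr3 φ t = v) {s v : K}
    (h : s ≠ 0 ∨ v ≠ 0) : ∃ t, tr3 φ (t * v) + tr3 φ (φ t * φ (φ t) * s) ≠ 0 := by
  by_cases hs : s = 0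
  · have hv : v ≠ 0 := h.resolve_left (fun h => h hs)
    obtain ⟨t, ht⟩ := htr 1 (map_one φ)
    refine ⟨t * v⁻¹, ?_⟩
    rw [mul_assoc, inv_mul_cancel₀ hv, mul_one, ht, hs, mul_zero, tr3_zero, add_zero]
    exact one_ne_zero
  · by_contra hcon
    push Not at hcon
    -- the polar form
    have hpol : ∀ t r : K, tr3 φ (t * (φ r * φ (φ s) + φ (φ r) * φ s)) = 0 := by
      intro t r
      have h1 := hcon (t + r)
      have h2 := hcon t
      have h4 := hcon r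
      have e : tr3 φ ((t + r) * v) + tr3 φ (φ (t + r) * φ (φ (t + r)) * s) =
          (tr3 φ (t * v) + tr3 φ (φ t * φ (φ t) * s)) + (tr3 φ (r * v) + tr3 φ (φ r * φ (φ r) * s)) +
          tr3 φ (t * (φ r * φ (φ s) + φ (φ r) * φ s)) := by
        unfold tr3
        simp only [map_add, map_mul, h3]
        ring
      rw [h1, h2, h4, add_zero, zero_add] at e
      exact e.symm
    have hz : ∀ r : K, φ r * φ (φ s) + φ (φ r) * φ s = 0 := by
      intro r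
      apply hn_of htr
      intro t
      have := hpol t r
      rw [mul_comm] at this
      exact this
    have h1 := hz 1
    rw [map_one, map_one, one_mul, one_mul] at h1
    have h2 : φ (φ s) = φ s := eq_of_add h1
    have hs' : φ s ≠ 0 := (map_ne_zero φ).2 hs
    obtain ⟨r, hr⟩ := hne
    have h4 := hz r
    rw [h2, ← add_mul] at h4
    have h5 := (mul_eq_zero.1 h4).resolve_right hs'
    exact hr (φ.injective (eq_of_add h5)).symm

/-- normalising the middle coordinate -/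
theorem exC [Finite K] (h3 : ∀ t, φ (φ (φ t)) = t) {v : K} (hv : v ≠ 0) :
    ∃ c : Kˣ, (c : K)⁻¹ * (φ c * φ (φ c)) * v = 1 := by
  let f : Kˣ → Kˣ := fun c => c⁻¹ * (φu φ c * φu φ (φu φ c))
  have hf : Function.Injective f := by
    intro c d h
    have h1 : ((c : K))⁻¹ * (φ c * φ (φ c)) = ((d : K))⁻¹ * (φ d * φ (φ d)) := by
      have := congrArg (fun u : Kˣ => (u : K)) h
      simp only [f, Units.val_mul, Units.val_inv_eq_inv_val, φu_val] at this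
      exact this
    have e1 := congrArg φ h1
    have e2 := congrArg φ e1
    simp only [map_mul, map_inv₀, h3] at e1 e2
    have hc := c.ne_zero
    have hd := d.ne_zero
    have hc1 : φ (c : K) ≠ 0 := (map_ne_zero φ).2 hc
    have hd1 : φ (d : K) ≠ 0 := (map_ne_zero φ).2 hd
    have hc2 : φ (φ (c : K)) ≠ 0 := (map_ne_zero φ).2 hc1
    have hd2 : φ (φ (d : K)) ≠ 0 := (map_ne_zero φ).2 hd1
    -- the norms agree
    have h5 : (c : K)⁻¹ * (φ c * φ (φ c)) * ((φ (c : K))⁻¹ * (φ (φ c) * c)) =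
        (d : K)⁻¹ * (φ d * φ (φ d)) * ((φ (d : K))⁻¹ * (φ (φ d) * d)) := by rw [h1, e1]
    have h6 : φ (φ (c : K)) ^ 2 = φ (φ (d : K)) ^ 2 := by
      have l : (c : K)⁻¹ * (φ c * φ (φ c)) * ((φ (c : K))⁻¹ * (φ (φ c) * c)) = φ (φ (c : K)) ^ 2 := by
        field_simp
      have r : (d : K)⁻¹ * (φ d * φ (φ d)) * ((φ (d : K))⁻¹ * (φ (φ d) * d)) = φ (φ (d : K)) ^ 2 := by
        field_simp
      rw [← l, ← r, h5]
    have h7 : φ (φ (c : K)) = φ (φ (d : K)) := by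
      have : (φ (φ (c : K)) + φ (φ (d : K))) ^ 2 = 0 := by
        rw [CharTwo.add_sq, h6, two_tr]
      exact eq_of_add (pow_eq_zero_iff (two_ne_zero) |>.1 this)
    exact Units.ext (φ.injective (φ.injective h7))
  have hfin : Finite Kˣ := inferInstance
  obtain ⟨c, hc⟩ := (Finite.injective_iff_surjective.1 hf) (Units.mk0 v hv)⁻¹
  refine ⟨c, ?_⟩
  have h1 : ((c : K))⁻¹ * (φ c * φ (φ c)) = v⁻¹ := by
    have := congrArg (fun u : Kˣ => (u : K)) hc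
    simp only [f, Units.val_mul, Units.val_inv_eq_inv_val, φu_val, Units.val_mk0] at this
    exact this
  rw [h1, inv_mul_cancel₀ hv]

/-- square roots of fixed elements -/
theorem exS [Finite K] {v : K} (hv : v ≠ 0) (hφ : φ v = v) : ∃ c : Kˣ, φ (c : K) = c ∧ (c : K) ^ 2 = v := by
  have hinj : Function.Injective (fun x : K => x ^ 2) := by
    intro a b h
    have : (a + b) ^ 2 = 0 := by
      rw [CharTwo.add_sq, show a ^ 2 = b ^ 2 from h, two_tr]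
    exact eq_of_add (pow_eq_zero_iff (two_ne_zero) |>.1 this)
  obtain ⟨c, hc⟩ := (Finite.injective_iff_surjective.1 hinj) v
  have hc0 : c ≠ 0 := by
    rintro rfl; apply hv; rw [← hc]; simp
  refine ⟨Units.mk0 c hc0, ?_, hc⟩
  apply hinj
  change (φ c) ^ 2 = c ^ 2
  rw [← map_pow]
  change φ (c ^ 2) = c ^ 2
  have hc' : c ^ 2 = v := hc
  rw [hc', hφ]

end fld

section main

variable [CharP K 2] [Finite K]

/-- the second representative -/
noncomputable def y0 (φ : K ≃+* K) : ↥(chevD4.group K) := ee φ 1 0 1 0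

theorem y0_is : Is (y0 φ) (av φ 1 0 1 0) := is_ee φ 1 0 1 0

theorem y0_mem (h3 : ∀ t, φ (φ (φ t)) = t) : y0 φ ∈ (tD4 φ).G1 := ee_mem φ h3 0 1 (map_one φ) (map_zero φ)

/-- the first reduction -/
theorem red1 (h3 : ∀ t, φ (φ (φ t)) = t) (htr : ∀ v, φ v = v → ∃ t, tr3 φ t = v) {x : ↥(chevD4.group K)} {u s v w : K}
    (hx : Is x (av φ u s v w)) (hG : x ∈ (tD4 φ).G1) (h2 : x * x = 1) (hu : φ u = u) (hu0 : u ≠ 0) :
    Cj φ x (X 23 1) ∨ Cj φ x (y0 φ) := by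
  obtain ⟨y, hc, hy⟩ := cj_shear h3 (s * u⁻¹) hu hx
  have e1 : s + u * (s * u⁻¹) = 0 := by
    have : u * (s * u⁻¹) = s := by field_simp
    rw [this, two_tr]
  rw [e1] at hy
  have hyG := hc.mem hG
  have hy2 := hc.sq h2
  have hq := quad hy hy2
  rw [zero_mul, tr3_zero] at hq
  have e2 := (mul_eq_zero.1 hq.symm).resolve_left hu0
  rw [e2] at hy
  obtain ⟨v', hv'⟩ : ∃ v', v' = v + (φ (s * u⁻¹) * φ (φ s) + φ (φ (s * u⁻¹)) * φ s) +
    u * (φ (s * u⁻¹) * φ (φ (s * u⁻¹))) := ⟨_, rfl⟩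
  rw [← hv'] at hy
  by_cases h0 : v' = 0
  · rw [h0] at hy
    left
    have h4 := cjZ htr h3 hu (map_zero φ) hy (is6 φ u) hyG (X14_mem φ hu) (Or.inl hu0)
    obtain ⟨g, hg, c', h5, h6, h7⟩ := conj14 φ hu0 hu
    obtain ⟨g', hg', h8⟩ := conj_torus φ h5 h6
    exact (hc.trans h4).trans (Cj.trans ⟨g, hg, h7⟩ (Cj.symm ⟨g', hg', h8⟩))
  · right
    obtain ⟨c, hc1⟩ := exC h3 h0
    have hN : φ ((c : K) * (φ c * φ (φ c))) = (c : K) * (φ c * φ (φ c)) := by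
      rw [map_mul, map_mul, h3]; ring
    have hN0 : (c : K) * (φ c * φ (φ c)) ≠ 0 := by
      have h4 : φ (c : K) ≠ 0 := (map_ne_zero φ).2 c.ne_zero
      exact mul_ne_zero c.ne_zero (mul_ne_zero h4 ((map_ne_zero φ).2 h4))
    obtain ⟨κ, hκ, hκ2⟩ := exS (φ := φ) (v := (c : K) * (φ c * φ (φ c)) * u⁻¹) (mul_ne_zero hN0 (inv_ne_zero hu0))
      (by rw [map_mul, hN, map_inv₀, hu])
    obtain ⟨z, hcz, hz⟩ := cj_torus h3 c hκ hy
    have e3 : ((c : K) * (φ c * φ (φ c)))⁻¹ * ((κ : K) ^ 2 * u) = 1 := by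
      rw [hκ2, mul_assoc _ u⁻¹, inv_mul_cancel₀ hu0, mul_one, inv_mul_cancel₀ hN0]
    rw [e3, hc1] at hz
    have h4 := cjZ htr h3 (map_one φ) (map_zero φ) hz y0_is (hcz.mem hyG) (y0_mem h3) (Or.inl one_ne_zero)
    exact (hc.trans hcz).trans h4

/-- involutions in the Heisenberg group -/
theorem red2 (h3 : ∀ t, φ (φ (φ t)) = t) (hne : ∃ r : K, φ r ≠ r) (htr : ∀ v, φ v = v → ∃ t, tr3 φ t = v)
    {x : ↥(chevD4.group K)} (hQ : x ∈ QQ φ) (hG : x ∈ (tD4 φ).G1) (h2 : x * x = 1) (h1 : x ≠ 1) :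
    Cj φ x (X 23 1) ∨ Cj φ x (y0 φ) := by
  obtain ⟨u, s, v, w, hu, hw, hx⟩ := hQ
  have key : ∀ {x : ↥(chevD4.group K)} {u s v w : K}, φ u = u → φ w = w → Is x (av φ u s v w) → x ∈ (tD4 φ).G1 →
      x * x = 1 → (u ≠ 0 ∨ w ≠ 0) → Cj φ x (X 23 1) ∨ Cj φ x (y0 φ) := by
    intro x u s v w hu hw hx hG h2 h
    by_cases hu0 : u = 0
    · obtain ⟨y, hc, hy⟩ := cj_swap hx
      rcases red1 h3 htr hy (hc.mem hG) (hc.sq h2) hw (h.resolve_left (fun h => h hu0)) with h4 | h4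
      · exact Or.inl (hc.trans h4)
      · exact Or.inr (hc.trans h4)
    · exact red1 h3 htr hx hG h2 hu hu0
  by_cases h4 : u ≠ 0 ∨ w ≠ 0
  · exact key hu hw hx hG h2 h4
  · push Not at h4
    obtain ⟨rfl, rfl⟩ := h4
    by_cases h5 : s ≠ 0 ∨ v ≠ 0
    · obtain ⟨t, ht⟩ := exT h3 hne htr h5
      obtain ⟨y, hc, hy⟩ := cj_shear h3 t hu hx
      have e : (0 : K) + tr3 φ (t * v) + tr3 φ (φ t * φ (φ t) * s) + 0 * (t * (φ t * φ (φ t))) =
          tr3 φ (t * v) + tr3 φ (φ t * φ (φ t) * s) := by ring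
      rw [e] at hy
      rcases key hu (by rw [map_add, tr3_fix h3, tr3_fix h3]) hy (hc.mem hG) (hc.sq h2) (Or.inr ht) with h6 | h6
      · exact Or.inl (hc.trans h6)
      · exact Or.inr (hc.trans h6)
    · push Not at h5
      obtain ⟨rfl, rfl⟩ := h5
      obtain ⟨δ, rfl⟩ := X23_of hx
      left
      have h6 : δ ≠ 0 := fun h => h1 (X23_one.2 h)
      obtain ⟨g', hg', h8⟩ := conj_torus φ h6 (fix_of_mem φ hG)
      exact Cj.symm ⟨g', hg', h8⟩

theorem atab : ∀ p ∈ [(18, 13), (18, 12), (13, 12)], p.1 < 24 ∧ p.2 < 24 ∧ p.2 ≠ p.1 ∧ p.2 ≠ chevD4.neg p.1 ∧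
    chevD4.commTerms p.1 p.2 = [] := by decide +kernel

theorem aa_sq (t : K) : aa φ t * aa φ t = 1 := by
  have c1 := X_comm (K := K) (atab (18, 13) (by simp)) t (φ t)
  have c2 := X_comm (K := K) (atab (18, 12) (by simp)) t (φ (φ t))
  have c3 := X_comm (K := K) (atab (13, 12) (by simp)) (φ t) (φ (φ t))
  have d : ∀ {r : ℕ} (_ : r < 24) (t : K), X r t * X r t = 1 := by
    intro r hr t
    rw [← X_add hr, two_tr, X_zero hr]
  have hcm : Commute (X 18 t) (X 13 (φ t) * X 12 (φ (φ t))) := (show Commute _ _ from c1).mul_right c2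
  have hcm2 : Commute (X 13 (φ t)) (X 12 (φ (φ t))) := c3
  unfold aa
  calc X 18 t * (X 13 (φ t) * X 12 (φ (φ t))) * (X 18 t * (X 13 (φ t) * X 12 (φ (φ t))))
      = X 18 t * ((X 13 (φ t) * X 12 (φ (φ t))) * X 18 t) * (X 13 (φ t) * X 12 (φ (φ t))) := by simp only [mul_assoc]
    _ = (X 18 t * X 18 t) * (X 13 (φ t) * (X 12 (φ (φ t)) * X 13 (φ t)) * X 12 (φ (φ t))) := by
        rw [← hcm.eq]; simp only [mul_assoc]
    _ = (X 18 t * X 18 t) * ((X 13 (φ t) * X 13 (φ t)) * (X 12 (φ (φ t)) * X 12 (φ (φ t)))) := by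
        rw [← hcm2.eq]; simp only [mul_assoc]
    _ = 1 := by rw [d (by norm_num), d (by norm_num), d (by norm_num), mul_one, mul_one]

theorem isav_congr {x : ↥(chevD4.group K)} {u s v w u' s' v' w' : K} (hx : Is x (av φ u s v w)) (h1 : u = u')
    (h2 : s = s') (h3 : v = v') (h4 : w = w') : Is x (av φ u' s' v' w') := by
  subst h1 h2 h3 h4; exact hx

/-- involutions outside the Heisenberg group -/
theorem red3 (h3 : ∀ t, φ (φ (φ t)) = t) (htr : ∀ v, φ v = v → ∃ t, tr3 φ t = v) {τ : K} (hτ : τ ≠ 0)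
    {x : ↥(chevD4.group K)} (hQ : x ∈ QQ φ) (hG : aa φ τ * x ∈ (tD4 φ).G1) (h2 : (aa φ τ * x) * (aa φ τ * x) = 1) :
    ∃ y ∈ QQ φ, Cj φ (aa φ τ * x) y := by
  obtain ⟨u, s, v, w, hu, hw, hx⟩ := hQ
  have hn := hn_of htr
  have ha := aa_sq (φ := φ) τ
  have hai : (aa φ τ)⁻¹ = aa φ τ := inv_eq_of_mul_eq_one_left ha
  have hsh := shear_aa φ h3 τ hu hx
  have h1 := isav_mul φ hsh hx
  have e1 : (aa φ τ)⁻¹ * x * aa φ τ * x = 1 := by
    rw [hai, ← h2]; simp only [mul_assoc]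
  rw [e1] at h1
  have h10 : Is (1 : ↥(chevD4.group K)) (av φ 0 0 0 0) := is_one.congr fun r hr => (av_zero hr).symm
  obtain ⟨-, k2, k3, k4⟩ := av_uniq φ h1 h10 hn
  have hτ1 : φ τ ≠ 0 := (map_ne_zero φ).2 hτ
  have hτ2 : φ (φ τ) ≠ 0 := (map_ne_zero φ).2 hτ1
  have hu0 : u = 0 := by
    have : u * τ = 0 := by linear_combination k2 - two_tr s
    exact (mul_eq_zero.1 this).resolve_right hτ
  subst hu0
  have k3' : φ τ * φ (φ s) + φ (φ τ) * φ s = 0 := by linear_combination k3 - two_tr v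
  have k4' : tr3 φ (τ * v) + tr3 φ (φ τ * φ (φ τ) * s) = 0 := by
    unfold tr3; linear_combination k4 - two_tr w
  obtain ⟨κ, hκ⟩ : ∃ κ, κ = s * τ⁻¹ := ⟨_, rfl⟩
  have hs : s = κ * τ := by rw [hκ, mul_assoc, inv_mul_cancel₀ hτ, mul_one]
  have hκφ : φ κ = κ := by
    rw [hs] at k3'
    simp only [map_mul] at k3'
    have h5 : φ τ * φ (φ τ) * (φ (φ κ) + φ κ) = 0 := by linear_combination k3'
    have h6 := (mul_eq_zero.1 h5).resolve_left (mul_ne_zero hτ1 hτ2)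
    exact φ.injective (eq_of_add h6)
  obtain ⟨N, hN⟩ : ∃ N, N = τ * (φ τ * φ (φ τ)) := ⟨_, rfl⟩
  have hNφ : φ N = N := by rw [hN, map_mul, map_mul, h3]; ring
  have hN0 : N ≠ 0 := by rw [hN]; exact mul_ne_zero hτ (mul_ne_zero hτ1 hτ2)
  have k5 : tr3 φ (φ τ * φ (φ τ) * s) = κ * N := by
    rw [hs]
    unfold tr3
    simp only [map_mul, h3, hκφ]
    rw [hN]
    linear_combination (κ * (τ * (φ τ * φ (φ τ)))) * (two_tr (1 : K))
  rw [k5] at k4'
  have k6 : tr3 φ (τ * v) = κ * N := eq_of_add k4'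
  -- the solution
  obtain ⟨ρ, hρ⟩ : ∃ ρ, ρ = v * (φ τ * φ (φ τ))⁻¹ + κ := ⟨_, rfl⟩
  have hρtr : ρ + φ ρ + φ (φ ρ) = 0 := by
    have e2 : tr3 φ (v * (φ τ * φ (φ τ))⁻¹) = κ := by
      have : v * (φ τ * φ (φ τ))⁻¹ = N⁻¹ * (τ * v) := by
        rw [hN]; field_simp
      rw [this, tr3_smul (by rw [map_inv₀, hNφ]), k6]
      field_simp
    have e3 : tr3 φ ρ = tr3 φ (v * (φ τ * φ (φ τ))⁻¹) + tr3 φ κ := by rw [hρ, tr3_add]
    have e4 : tr3 φ κ = κ := by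
      unfold tr3; rw [hκφ, hκφ]; linear_combination two_tr κ
    rw [e2, e4, two_tr] at e3
    exact e3
  obtain ⟨b, hb⟩ := htr (w + κ * N) (by rw [map_add, map_mul, hw, hκφ, hNφ])
  obtain ⟨v', hv'⟩ : ∃ v', v' = τ⁻¹ * b := ⟨_, rfl⟩
  have hv'' : τ * v' = b := by rw [hv', ← mul_assoc, mul_inv_cancel₀ hτ, one_mul]
  obtain ⟨z, hz⟩ : ∃ z, z = ee φ κ (τ * ρ) v' 0 := ⟨_, rfl⟩
  have hzi : Is z (av φ κ (τ * ρ) v' 0) := by rw [hz]; exact is_ee φ _ _ _ _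
  have hzG : z ∈ (tD4 φ).G1 := by rw [hz]; exact ee_mem φ h3 _ _ hκφ (map_zero φ)
  have hB := isav_mul φ (isav_mul φ (shear_aa φ h3 τ hκφ hzi.inv) hx) hzi
  have hB0 : Is ((aa φ τ)⁻¹ * z⁻¹ * aa φ τ * x * z) (av φ 0 0 0 0) := by
    refine isav_congr hB ?_ ?_ ?_ ?_
    · linear_combination two_tr κ
    · rw [hs]; linear_combination two_tr (κ * τ) + two_tr (τ * ρ)
    · have e5 : φ (φ ρ) + φ ρ = ρ := by linear_combination hρtr - two_tr ρ
      have e6 : φ τ * φ (φ τ) * ρ = v + κ * (φ τ * φ (φ τ)) := by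
        rw [hρ]; field_simp
      simp only [map_mul]
      linear_combination (φ τ * φ (φ τ)) * e5 + e6 + two_tr (κ * (φ τ * φ (φ τ))) + two_tr v + two_tr v'
    · have e7 : tr3 φ (τ * v') = w + κ * N := by rw [hv'', hb]
      have e8 : tr3 φ (φ τ * φ (φ τ) * (τ * ρ)) = 0 := by
        have : φ τ * φ (φ τ) * (τ * ρ) = N * ρ := by rw [hN]; ring
        rw [this, tr3_smul hNφ]
        have : tr3 φ ρ = 0 := hρtr
        rw [this, mul_zero]
      unfold tr3 at e7 e8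
      rw [e7, e8, ← hN]
      linear_combination two_tr w + two_tr (κ * N)
  obtain ⟨δ, hδ⟩ := X23_of hB0
  have e9 : z⁻¹ * (aa φ τ * x) * z = aa φ τ * X 23 δ := by
    rw [← hδ]; group
  have hδG : X 23 δ ∈ (tD4 φ).G1 := by
    have : X 23 δ = (aa φ τ)⁻¹ * (z⁻¹ * (aa φ τ * x) * z) := by rw [e9]; group
    rw [this]
    exact mul_mem (inv_mem (aa_mem φ h3 τ)) (mul_mem (mul_mem (inv_mem hzG) hG) hzG)
  have hδφ := fix_of_mem φ hδG
  refine ⟨(tD4 φ).nj j1 * (aa φ τ * X 23 δ) * ((tD4 φ).nj j1)⁻¹, ?_, (tD4 φ).nj j1 * z⁻¹,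
    mul_mem ((tD4 φ).nj_G1 j1) (inv_mem hzG), by rw [← e9]; group⟩
  have e10 : (tD4 φ).nj j1 * (aa φ τ * X 23 δ) * ((tD4 φ).nj j1)⁻¹ =
      ((tD4 φ).nj j1 * aa φ τ * ((tD4 φ).nj j1)⁻¹) * ((tD4 φ).nj j1 * X 23 δ * ((tD4 φ).nj j1)⁻¹) := by group
  have e11 : (tD4 φ).nj j1 * aa φ τ * ((tD4 φ).nj j1)⁻¹ = X 19 τ * (X 16 (φ τ) * X 15 (φ (φ τ))) := by
    unfold aa
    rw [conj3, nj_conj2 φ j1 (by norm_num), nj_conj2 φ j1 (by norm_num), nj_conj2 φ j1 (by norm_num)]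
    have e1 : jwD4 (j1 : Fin chevG2.rank) 18 = 19 := jtab1.1
    have e2 : jwD4 (j1 : Fin chevG2.rank) 13 = 16 := jtab1.2.1
    have e3 : jwD4 (j1 : Fin chevG2.rank) 12 = 15 := jtab1.2.2.1
    rw [e1, e2, e3]
  have e12 : (tD4 φ).nj j1 * X 23 δ * ((tD4 φ).nj j1)⁻¹ = X 22 δ := by
    rw [nj_conj2 φ j1 (by norm_num)]
    exact congrArg (fun r => X r δ) jtab1.2.2.2.1
  rw [e10, e11, e12]
  exact ⟨_, _, _, _, by rw [map_add, map_zero], by rw [map_add, map_zero, hδφ], isav_mul φ (is8 φ τ) (is10 φ δ)⟩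

end main

end Cfsg.Agent.LSD
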