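import Cfsg.Agent.LSD.Inv5

/-!
Involutions of the triality group in characteristic two: the two classes.
-/

set_option autoImplicit false
set_option maxRecDepth 100000
set_option linter.unusedSectionVars false
set_option linter.unusedSimpArgs false

namespace Cfsg.Agent.LSD

open Cfsg.Lie Cfsg.Agent.Chev Cfsg.Agent.ChevGrp Cfsg.Agent.ChevGrp.DData Cfsg.Agent.ChevWeyl Cfsg.Agent.ChevTw
  Cfsg.Agent.Tw3

/-- elements of prime power order are conjugate into a Sylow subgroup -/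
theorem exists_conj_mem {G : Type*} [Group G] [Finite G] {p : ℕ} [Fact p.Prime] {P : Subgroup G} (hP : IsPGroup p P)
    (hi : ¬ p ∣ P.index) {t : G} (ht : IsPGroup p (Subgroup.zpowers t)) : ∃ g, g * t * g⁻¹ ∈ P := by
  obtain ⟨Q, hQ⟩ := ht.exists_le_sylow
  let P' : Sylow p G := hP.toSylow hi
  obtain ⟨g, hg⟩ := MulAction.exists_smul_eq G Q P'
  refine ⟨g, ?_⟩
  have h1 : t ∈ (Q : Subgroup G) := hQ (Subgroup.mem_zpowers t)
  have h2 : g * t * g⁻¹ ∈ ((g • Q : Sylow p G) : Subgroup G) := by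
    rw [Sylow.coe_subgroup_smul]
    exact ⟨t, h1, rfl⟩
  rw [hg] at h2
  exact h2

variable {K : Type*} [Field K] {φ : K ≃+* K}

/-- the long roots -/
def lg (r : ℕ) : Bool := r = 0 || r = 1 || r = 5 || r = 6 || r = 10 || r = 11

theorem lg_refl : ∀ j < 2, ∀ r < 12, lg (chevG2.reflectRoot j r) = lg r := by decide +kernel

theorem lg_W {v : Equiv.Perm (Fin chevG2.nroots)} (hv : v ∈ dG2.rp.wsys.W) (r : Fin chevG2.nroots) :
    lg (v r) = lg r := by
  refine WSys.W_induction (Q := fun v => lg (v r) = lg r) dG2.rp.wsys rfl ?_ hv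
  intro i u hu h
  have h1 : ((dG2.rp.wsys.w i (u r) : Fin chevG2.nroots) : ℕ) = chevG2.reflectRoot i (u r) := dG2.hw i (u r)
  rw [Equiv.Perm.mul_apply, h1, lg_refl i i.2 _ (u r).2, h]

section two

variable [CharP K 2] [Finite K]

theorem X23_mem' {c : K} (hc : φ c = c) : X 23 c ∈ (tD4 φ).X' (ix 11) := by
  obtain ⟨⟨a1, a2, a3, a4⟩, ⟨b1, b2, b3, b4⟩, ⟨d1, d2⟩, e1, e2⟩ := tab5
  refine (TwData.mem_X' _).2 ⟨X_mem_cls φ (A := 11) (by norm_num) (by norm_num) tab6.2.2.2.2.2 c, ?_⟩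
  rw [sg_X φ (by norm_num), d1, d2, hc]; simp

theorem y0_ne (htr : ∀ v, φ v = v → ∃ t, tr3 φ t = v) : y0 φ ≠ 1 := by
  intro h
  have h1 := y0_is (φ := φ)
  rw [h] at h1
  have h2 : Is (1 : ↥(chevD4.group K)) (av φ 0 0 0 0) := is_one.congr fun r hr => (av_zero hr).symm
  exact one_ne_zero (av_uniq φ h1 h2 (hn_of htr)).1

theorem y0_sq : y0 φ * y0 φ = 1 := by
  rw [(y0_is (φ := φ)).sq, cc_av]
  simp only [zero_mul, mul_zero, map_zero, add_zero, sub_zero]
  exact X_zero (by norm_num)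

theorem L8_pos : ∀ r ∈ L8, 12 ≤ r := by decide

theorem y0_U (h3 : ∀ t, φ (φ (φ t)) = t) : y0 φ ∈ (tD4 φ).tw.U := by
  rw [TwData.tw_U]
  refine ⟨?_, y0_mem h3⟩
  apply Subgroup.list_prod_mem
  intro x hx
  obtain ⟨r, hr, rfl⟩ := List.mem_map.1 hx
  have hr' : r < 24 := (tab2 r hr).1
  have h1 : dD4.rp.wsys.Pos (⟨r, hr'⟩ : Fin chevD4.nroots) := (posD4_iff dD4 _).2 (L8_pos r hr)
  exact RGrp.X_le_U (amb goodD4 dD4 K).R h1 ((amb goodD4 dD4 K).x_mem (⟨r, hr'⟩ : Fin chevD4.nroots) _)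

theorem comm_U {g : ↥(chevD4.group K)} (hg : g ∈ (tD4 φ).tw.U) (c : K) : g * X 23 c = X 23 c * g := by
  obtain ⟨t, x, ⟨u, s, v, w, -, -, δ, hx⟩, rfl⟩ := mem_twU φ hg
  have h1 : ∀ {p : ℕ} (_ : p ∈ [12, 13, 18]) (t : K), Commute (X p t) (X 23 c) := fun hp t => X_comm (dtab23 _ hp) t c
  have h2 : Commute (aa φ t) (X 23 c) := by
    unfold aa
    exact (h1 (by simp) _).mul_left ((h1 (by simp) _).mul_left (h1 (by simp) _))
  have h4 : Commute x (X 23 c) := by
    rw [hx]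
    refine Commute.mul_left ?_ ?_
    · exact (pl_center _ _).symm
    · change X 23 δ * X 23 c = X 23 c * X 23 δ
      rw [← X_add (by norm_num), ← X_add (by norm_num), add_comm]
  exact (h2.mul_left h4).eq

/-- the two representatives are not conjugate -/
theorem not_cj (h3 : ∀ t, φ (φ (φ t)) = t) (htr : ∀ v, φ v = v → ∃ t, tr3 φ t = v) : ¬ Cj φ (X 23 1) (y0 φ) := by
  rintro ⟨g, hg, h⟩
  have hgG : g ∈ (tD4 φ).tw.Grp := by rw [TwData.tw_Grp]; exact hg
  obtain ⟨b, hb, m, hm, b', hb', rfl⟩ := RGrp.exists_bnb hgG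
  obtain ⟨u', hu', h', hh', rfl⟩ := RGrp.mem_B.1 hb'
  have h1 : h' * X 23 1 * h'⁻¹ ∈ (tD4 φ).X' (ix 11) := (tD4 φ).tw.H_X h' hh' (ix 11) _ (X23_mem' (map_one φ))
  obtain ⟨c, hc, hc'⟩ := mem11 φ h1
  obtain ⟨v, w, hv, -, -⟩ := (tD4 φ).act_of_tw hm
  have h2 : u' * h' * X 23 1 * (u' * h')⁻¹ = X 23 c := by
    have : u' * h' * X 23 1 * (u' * h')⁻¹ = u' * (h' * X 23 1 * h'⁻¹) * u'⁻¹ := by group
    rw [this, hc', comm_U hu' c]; group
  obtain ⟨x, hx⟩ : ∃ x, x = m * X 23 c * m⁻¹ := ⟨_, rfl⟩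
  have hxA : x ∈ (tD4 φ).X' (v (ix 11)) := by
    rw [hx]
    exact hv.conj (X23_mem' hc)
  have h4 : y0 φ = b * x * b⁻¹ := by
    rw [← h, hx, ← h2]; group
  by_cases hp : dG2.rp.wsys.Pos (v (ix 11))
  · obtain ⟨u, hu, k, hk, rfl⟩ := RGrp.mem_B.1 hb
    have h5 : k * x * k⁻¹ ∈ (tD4 φ).X' (v (ix 11)) := (tD4 φ).tw.H_X k hk _ _ hxA
    obtain ⟨x', hx'⟩ : ∃ x', x' = k * x * k⁻¹ := ⟨_, rfl⟩
    rw [← hx'] at h5
    have h6 : u⁻¹ * y0 φ * u = x' := by rw [h4, hx']; group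
    obtain ⟨t, q, ⟨a, s, v', w', ha, hw', hq⟩, rfl⟩ := mem_twU φ hu
    have h7 : (aa φ t * q)⁻¹ * y0 φ * (aa φ t * q) = q⁻¹ * ((aa φ t)⁻¹ * y0 φ * aa φ t) * q := by group
    have h8 := shear_aa φ h3 t (map_one φ) (y0_is (φ := φ))
    have h9 := isav_mul φ (isav_mul φ hq.inv h8) hq
    rw [← h7, h6] at h9
    -- the coordinates of `x'`
    have h10 : ∃ c d, Is x' (av φ c 0 0 d) := by
      have hl : lg (v (ix 11)) = true := by rw [lg_W hv.1]; rfl
      rw [posG2_iff dG2] at hp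
      obtain ⟨A, hA⟩ : ∃ A, A = v (ix 11) := ⟨_, rfl⟩
      rw [← hA] at hl hp h5
      obtain ⟨A, hA12⟩ := A
      have hA12' : A < 12 := hA12
      have key : ∀ A < 12, 6 ≤ A → lg A = true → A = 6 ∨ A = 10 ∨ A = 11 := by decide
      rcases key A hA12' hp hl with rfl | rfl | rfl
      · obtain ⟨u, -, rfl⟩ := mem6 φ h5
        exact ⟨u, 0, is6 φ u⟩
      · obtain ⟨u, -, rfl⟩ := mem10 φ h5
        exact ⟨0, u, is10 φ u⟩
      · obtain ⟨u, -, rfl⟩ := mem11 φ h5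
        exact ⟨0, 0, is11 φ u⟩
    obtain ⟨c, d, h11⟩ := h10
    obtain ⟨-, k2, k3, -⟩ := av_uniq φ h9 h11 (hn_of htr)
    have ht : t = 0 := by linear_combination k2 - two_tr s
    rw [ht] at k3
    simp only [map_zero, zero_mul, mul_zero, add_zero] at k3
    apply one_ne_zero (α := K)
    linear_combination k3 - two_tr v'
  · have h5 : b⁻¹ * y0 φ * b = x := by rw [h4]; group
    have h6 : x ∈ (tD4 φ).tw.B := by
      rw [← h5]
      exact mul_mem (mul_mem (inv_mem hb) ((tD4 φ).tw.U_le_B (y0_U h3))) hb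
    have h7 : x ∈ (tD4 φ).tw.V := (tD4 φ).tw.X_le_V hp hxA
    have h8 := (tD4 φ).tw.B_inf_V h6 h7
    apply y0_ne htr
    rw [h4, h8]; group

/-- involutions of the positive unipotent subgroup -/
theorem inv_U (h3 : ∀ t, φ (φ (φ t)) = t) (hne : ∃ r : K, φ r ≠ r) (htr : ∀ v, φ v = v → ∃ t, tr3 φ t = v)
    {x : ↥(chevD4.group K)} (hU : x ∈ (tD4 φ).tw.U) (h2 : x * x = 1) (h1 : x ≠ 1) :
    Cj φ x (X 23 1) ∨ Cj φ x (y0 φ) := by
  have hG : x ∈ (tD4 φ).G1 := ((tD4 φ).tw_U_le hU).2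
  obtain ⟨τ, q, hq, rfl⟩ := mem_twU φ hU
  by_cases hτ : τ = 0
  · have h0 : aa φ τ = 1 := by
      rw [hτ]; unfold aa
      rw [map_zero, map_zero, X_zero (by norm_num), X_zero (by norm_num), X_zero (by norm_num)]; simp
    rw [h0, one_mul] at hG h1 h2 ⊢
    exact red2 h3 hne htr hq hG h2 h1
  · obtain ⟨y, hy, hc⟩ := red3 h3 htr hτ hq hG h2
    rcases red2 h3 hne htr hy (hc.mem hG) (hc.sq h2) (hc.ne h1) with h | h
    · exact Or.inl (hc.trans h)
    · exact Or.inr (hc.trans h)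

end two

section final

variable [Fintype K] [CharP K 2] {q : ℕ}

omit [CharP K 2] in
theorem isPP [CharP K 2] (hK : Fintype.card K = q ^ 3) : ∃ k, k ≠ 0 ∧ q = 2 ^ k := by
  obtain ⟨n, hn, hc⟩ := FiniteField.card K 2
  have h1 : q ∣ 2 ^ (n : ℕ) := by
    rw [← hc, hK]; exact dvd_pow_self q (by norm_num)
  obtain ⟨k, -, hk⟩ := (Nat.dvd_prime_pow Nat.prime_two).1 h1
  refine ⟨k, ?_, hk⟩
  rintro rfl
  have h2 : 1 < Fintype.card K := Fintype.one_lt_card
  rw [hK, hk] at h2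
  norm_num at h2

theorem main (hK : Fintype.card K = q ^ 3) :
    (ConjClasses.mk '' {g : ↥(twistedD4 K q) | orderOf g = 2}).ncard = 2 := by
  classical
  obtain ⟨k, hk, hq2⟩ := isPP hK
  have hq : IsPrimePow q := ⟨2, k, Nat.prime_two.prime, Nat.pos_of_ne_zero hk, hq2.symm⟩
  obtain ⟨φ, hφ, h3⟩ := frob3 hq hK
  have htr : ∀ v, φ v = v → ∃ t, tr3 φ t = v := fun v hv => tr_surj (K := K) hq.two_le hK hφ h3 hv
  have hne : ∃ r : K, φ r ≠ r := by
    by_contra hcon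
    push Not at hcon
    have h1 := card_kk (K := K) hq hK hφ
    have h2 : Nat.card (kk φ) = Fintype.card K := by
      rw [← Nat.card_eq_fintype_card]
      exact Nat.card_congr (Equiv.subtypeUnivEquiv fun c => hcon c)
    rw [h1, hK] at h2
    have h4 := hq.two_le
    have h5 : q ^ 1 < q ^ 3 := Nat.pow_lt_pow_right (by omega) (by norm_num)
    rw [pow_one, ← h2] at h5
    exact lt_irrefl _ h5
  have hG := hG_D4 φ hφ h3
  let e : ↥(GT φ) ≃* ↥(twistedD4 K q) := (MulEquiv.subgroupCongr hG).trans (Subgroup.subgroupOfEquivOfLe hle_D4)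
  have hcardG : Nat.card ↥(GT φ) = q ^ 12 * (q ^ 2 - 1) * (q ^ 6 - 1) * (q ^ 8 + q ^ 4 + 1) := by
    rw [← card_D4 hq hK]; exact Nat.card_congr e.toEquiv
  have hcardU : Nat.card (tD4 φ).tw.U = (q ^ 3) ^ 3 * q ^ 3 :=
    card_U_G2 (isG2 dG2) (tD4 φ).tw (card_X0 φ h3 hK) (card_X1 φ hφ hq.two_le hK)
  have hUG : (tD4 φ).tw.U ≤ GT φ := fun x hx => ((tD4 φ).tw_U_le hx).2
  let P : Subgroup ↥(GT φ) := (tD4 φ).tw.U.subgroupOf (GT φ)
  have hcardP : Nat.card P = q ^ 12 := by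
    have : Nat.card P = Nat.card (tD4 φ).tw.U := Nat.card_congr (Subgroup.subgroupOfEquivOfLe hUG).toEquiv
    rw [this, hcardU]; ring
  have : Fact (Nat.Prime 2) := ⟨Nat.prime_two⟩
  have hP : IsPGroup 2 P := IsPGroup.of_card (n := k * 12) (by rw [hcardP, hq2, ← pow_mul])
  have hfin : Finite ↥(GT φ) := by
    have : Finite ↥(twistedD4 K q) := inferInstance
    exact Finite.of_equiv _ e.symm.toEquiv
  have hq0 : 0 < q ^ 12 := pow_pos hq.pos 12
  have heven : Even q := by rw [hq2]; exact (Nat.even_pow.2 ⟨even_two, hk⟩)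
  have hidx : ¬ 2 ∣ P.index := by
    have h1 := P.card_mul_index
    rw [hcardP, hcardG] at h1
    have h2 : P.index = (q ^ 2 - 1) * (q ^ 6 - 1) * (q ^ 8 + q ^ 4 + 1) := by
      apply Nat.eq_of_mul_eq_mul_left hq0
      rw [h1]; ring
    rw [h2, ← even_iff_two_dvd, Nat.not_even_iff_odd]
    have o1 : ∀ n, n ≠ 0 → Odd (q ^ n - 1) := by
      intro n hn
      exact Nat.Even.sub_odd (Nat.one_le_pow _ _ hq.pos) (heven.pow_of_ne_zero hn) odd_one
    refine ((o1 2 (by norm_num)).mul (o1 6 (by norm_num))).mul ?_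
    exact ((heven.pow_of_ne_zero (by norm_num)).add (heven.pow_of_ne_zero (by norm_num))).add_odd odd_one
  let a : ↥(GT φ) := ⟨X 23 1, X23_mem φ (map_one φ)⟩
  let b : ↥(GT φ) := ⟨y0 φ, y0_mem h3⟩
  have key : ∀ x : ↥(GT φ), orderOf x = 2 → IsConj a x ∨ IsConj b x := by
    intro x hx
    have hzp : IsPGroup 2 (Subgroup.zpowers x) := IsPGroup.of_card (n := 1) (by rw [Nat.card_zpowers, hx, pow_one])
    obtain ⟨g, hg⟩ := exists_conj_mem hP hidx hzp
    obtain ⟨y, hy⟩ : ∃ y, y = g * x * g⁻¹ := ⟨_, rfl⟩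
    rw [← hy] at hg
    have hx2 : x * x = 1 := by rw [← sq, ← hx, pow_orderOf_eq_one]
    have hx1 : x ≠ 1 := by rintro rfl; rw [orderOf_one] at hx; norm_num at hx
    have hy2 : y * y = 1 := by
      have : y * y = g * (x * x) * g⁻¹ := by rw [hy]; group
      rw [this, hx2]; group
    have hy1 : y ≠ 1 := by
      intro h
      apply hx1
      have : x = g⁻¹ * y * g := by rw [hy]; group
      rw [this, h]; group
    have hxy : IsConj x y := isConj_iff.2 ⟨g, hy.symm⟩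
    have hyU : (y : ↥(chevD4.group K)) ∈ (tD4 φ).tw.U := Subgroup.mem_subgroupOf.1 hg
    rcases inv_U h3 hne htr hyU (by rw [← Subgroup.coe_mul, hy2]; rfl) (fun h => hy1 (Subtype.ext h)) with
      ⟨g', hg', h⟩ | ⟨g', hg', h⟩
    · left
      exact (hxy.trans (isConj_iff.2 ⟨⟨g', hg'⟩, Subtype.ext h⟩)).symm
    · right
      exact (hxy.trans (isConj_iff.2 ⟨⟨g', hg'⟩, Subtype.ext h⟩)).symm
  have ha : orderOf a = 2 := by
    apply orderOf_eq_prime
    · apply Subtype.ext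
      change X 23 1 ^ 2 = 1
      rw [sq, ← X_add (by norm_num), CharTwo.add_self_eq_zero, X_zero (by norm_num)]
    · intro h
      have h1 : X 23 (1 : K) = 1 := congrArg Subtype.val h
      exact one_ne_zero (X23_one.1 h1)
  have hb : orderOf b = 2 := by
    apply orderOf_eq_prime
    · apply Subtype.ext
      change y0 φ ^ 2 = 1
      rw [sq, y0_sq]
    · intro h
      exact y0_ne htr (congrArg Subtype.val h)
  have hab : ¬ IsConj a b := by
    intro h
    obtain ⟨g, hg⟩ := isConj_iff.1 h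
    exact not_cj h3 htr ⟨g, g.2, congrArg Subtype.val hg⟩
  have hset : (ConjClasses.mk '' {g : ↥(twistedD4 K q) | orderOf g = 2}) =
      {ConjClasses.mk (e a), ConjClasses.mk (e b)} := by
    ext c
    constructor
    · rintro ⟨x, hx, rfl⟩
      have hx' : orderOf (e.symm x) = 2 := by rw [MulEquiv.orderOf_eq]; exact hx
      rcases key _ hx' with h | h
      · left
        have := e.toMonoidHom.map_isConj h
        rw [ConjClasses.mk_eq_mk_iff_isConj]
        have h2 : e.toMonoidHom (e.symm x) = x := e.apply_symm_apply x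
        rw [h2] at this
        exact this.symm
      · right
        have := e.toMonoidHom.map_isConj h
        rw [Set.mem_singleton_iff, ConjClasses.mk_eq_mk_iff_isConj]
        have h2 : e.toMonoidHom (e.symm x) = x := e.apply_symm_apply x
        rw [h2] at this
        exact this.symm
    · rintro (rfl | rfl)
      · exact ⟨e a, by rw [Set.mem_ofPred_eq, MulEquiv.orderOf_eq]; exact ha, rfl⟩
      · exact ⟨e b, by rw [Set.mem_ofPred_eq, MulEquiv.orderOf_eq]; exact hb, rfl⟩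
  rw [hset]
  apply Set.ncard_pair
  intro h
  rw [ConjClasses.mk_eq_mk_iff_isConj] at h
  apply hab
  have := e.symm.toMonoidHom.map_isConj h
  have h2 : e.symm.toMonoidHom (e a) = a := e.symm_apply_apply a
  have h4 : e.symm.toMonoidHom (e b) = b := e.symm_apply_apply b
  rw [h2, h4] at this
  exact this

end final

end Cfsg.Agent.LSD
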